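import Mathlib

/-!
# Regular abelian groups preserving a cartesian decomposition (helper349)

`R` a commutative group acting regularly on `Ω`, permuting the members of a family of equivalence relations `E j`
(`j ∈ J`, `|J| ≥ 2`) which define a bijection `Ω → ∏ Ω / E j`, all the `Ω / E j` having the same number `d ≥ 3` of elements.
Then `R` fixes all the relations and is the internal direct product of `|J|` subgroups of order `d` (`cart`).
-/

set_option autoImplicit false

namespace Cfsg.Agent.H349.BG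

open MulAction

/-- a cartesian decomposition permuted by `R` -/
structure Cart (R Ω J : Type*) [CommGroup R] [MulAction R Ω] [MulAction R J] (E : J → Ω → Ω → Prop) (d : ℕ) :
    Prop where
  eqv : ∀ j, Equivalence (E j)
  act : ∀ (r : R) j x y, E j x y → E (r • j) (r • x) (r • y)
  sep : ∀ x y, (∀ j, E j x y) → x = y
  ind : ∀ z : J → Ω, ∃ x, ∀ j, E j x (z j)
  card : ∀ j, Nat.card (Quotient ⟨E j, eqv j⟩) = d
  trans : ∀ x y : Ω, ∃ r : R, r • x = y
  free : ∀ (x : Ω) (r : R), r • x = x → r = 1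

namespace Cart

variable {R Ω J : Type*} [CommGroup R] [MulAction R Ω] [MulAction R J] {E : J → Ω → Ω → Prop} {d : ℕ}

/-- the transitivity on the pairs `(j, class)` above an orbit -/
theorem trans_pair (h : Cart R Ω J E d) (j₀ : J) (x₀ : Ω) (j : J) (hj : j ∈ orbit R j₀) (x : Ω) :
    ∃ r : R, r • j₀ = j ∧ E j (r • x₀) x := by
  classical
  -- a point all of whose classes are in the orbit
  choose! t ht using fun (i : J) (hi : i ∈ orbit R j₀) => mem_orbit_iff.1 hi
  obtain ⟨y, hy⟩ := h.ind fun i => t i • x₀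
  obtain ⟨s, rfl⟩ := h.trans y x
  have h1 : s⁻¹ • j ∈ orbit R j₀ := by
    rw [← orbit_eq_iff] at hj ⊢
    rw [orbit_smul, hj]
  have h2 := hy (s⁻¹ • j)
  have h3 := h.act s _ _ _ h2
  rw [smul_inv_smul] at h3
  refine ⟨s * t (s⁻¹ • j), ?_, ?_⟩
  · rw [mul_smul, ht _ h1, smul_inv_smul]
  · rw [mul_smul]
    exact (h.eqv j).symm h3

/-- an element fixing one pair fixes all pairs of the orbit -/
theorem fix_pair (h : Cart R Ω J E d) {j₀ : J} {x₀ : Ω} {r : R} (hr : r • j₀ = j₀) (hx : E j₀ (r • x₀) x₀) {j : J}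
    (hj : j ∈ orbit R j₀) : r • j = j ∧ ∀ x, E j (r • x) x := by
  have h1 : r • j = j := by
    obtain ⟨s, rfl⟩ := hj
    show r • s • j₀ = s • j₀
    rw [smul_smul, mul_comm, mul_smul, hr]
  refine ⟨h1, fun x => ?_⟩
  obtain ⟨s, hs, hsx⟩ := h.trans_pair j₀ x₀ j hj x
  have h2 := h.act s _ _ _ hx
  rw [hs, smul_smul, mul_comm, mul_smul] at h2
  have h3 := h.act r _ _ _ hsx
  rw [h1] at h3
  exact (h.eqv j).trans ((h.eqv j).symm h3) ((h.eqv j).trans h2 hsx)

theorem lt_three_pow {n : ℕ} (hn : 2 ≤ n) : n < 3 ^ (n - 1) := by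
  obtain ⟨k, rfl⟩ := Nat.exists_eq_add_of_le hn
  have : 2 + k - 1 = k + 1 := by omega
  rw [this]
  induction k with
  | zero => norm_num
  | succ k ih =>
    have := ih (by omega) (by omega)
    rw [pow_succ]
    omega

/-- **The orbits on the relations are trivial.** -/
theorem fixed [Finite J] [Finite Ω] [Nonempty Ω] (h : Cart R Ω J E d) (hd : 3 ≤ d) (r : R) (j₀ : J) : r • j₀ = j₀ := by
  classical
  obtain ⟨x₀⟩ : Nonempty Ω := inferInstance
  let O := orbit R j₀
  let Q : J → Type _ := fun j => Quotient (⟨E j, h.eqv j⟩ : Setoid Ω)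
  have : ∀ j, Finite (Q j) := fun j => by
    show Finite (Quotient _)
    infer_instance
  let f : R → Σ j : O, Q j := fun r => ⟨⟨r • j₀, mem_orbit _ _⟩, Quotient.mk _ (r • x₀)⟩
  let g : R → ∀ j : O, Q j := fun r j => Quotient.mk _ (r • x₀)
  have hg : Function.Surjective g := by
    intro p
    obtain ⟨x, hx⟩ := h.ind fun j => if hj : j ∈ O then (p ⟨j, hj⟩).out else x₀
    obtain ⟨r, hr⟩ := h.trans x₀ x
    refine ⟨r, funext fun j => ?_⟩
    have h1 := hx j
    rw [dif_pos j.2, ← hr] at h1
    show Quotient.mk _ (r • x₀) = p j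
    rw [← Quotient.out_eq (p j)]
    exact Quotient.sound h1
  have hfg : ∀ r s, f r = f s → g r = g s := by
    intro r s hrs
    have h1 : r • j₀ = s • j₀ := congrArg (fun a : Σ j : O, Q j => (a.1 : J)) hrs
    have h2 : E (r • j₀) (r • x₀) (s • x₀) := by
      have key : ∀ (j : O) (a b : Ω) (i : O), (⟨j, Quotient.mk _ a⟩ : Σ j : O, Q j) = ⟨i, Quotient.mk _ b⟩ → E j a b := by
        intro j a b i hab
        obtain ⟨rfl, hab⟩ := Sigma.mk.inj_iff.1 hab
        exact Quotient.exact (eq_of_heq hab)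
      exact key _ _ _ _ hrs
    have h3 : (s⁻¹ * r) • j₀ = j₀ := by rw [mul_smul, h1, inv_smul_smul]
    have h4 : E j₀ ((s⁻¹ * r) • x₀) x₀ := by
      have h5 := h.act s⁻¹ _ _ _ h2
      rw [← mul_smul, h3, ← mul_smul, inv_smul_smul] at h5
      exact h5
    funext j
    apply Quotient.sound
    show E j (r • x₀) (s • x₀)
    obtain ⟨h5, h6⟩ := h.fix_pair h3 h4 j.2
    have h7 := h6 (s • x₀)
    rwa [← mul_smul, mul_comm s⁻¹ r, mul_assoc, inv_mul_cancel, mul_one] at h7
  have hle : Nat.card (∀ j : O, Q j) ≤ Nat.card (Σ j : O, Q j) := by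
    apply Nat.card_le_card_of_injective (fun p => f (hg p).choose)
    intro p p' hpp
    have h1 := hfg _ _ hpp
    rwa [(hg p).choose_spec, (hg p').choose_spec] at h1
  have := Fintype.ofFinite O
  rw [Nat.card_pi, Nat.card_sigma] at hle
  have hQ : ∀ j : O, Nat.card (Q j) = d := fun j => h.card j
  simp only [hQ, Finset.prod_const, Finset.sum_const, Finset.card_univ, smul_eq_mul] at hle
  by_contra hne
  have h2 : 2 ≤ Fintype.card O := by
    rw [← Nat.card_eq_fintype_card]
    have : Nontrivial O := ⟨⟨⟨r • j₀, mem_orbit _ _⟩, ⟨j₀, mem_orbit_self _⟩, fun h => hne (congrArg Subtype.val h)⟩⟩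
    exact Finite.one_lt_card
  set n := Fintype.card O with hn
  have h3 : d ^ n = d ^ (n - 1) * d := by
    rw [← pow_succ]; congr 1; omega
  rw [h3] at hle
  have h4 := Nat.le_of_mul_le_mul_right hle (by omega)
  have h5 : 3 ^ (n - 1) ≤ d ^ (n - 1) := Nat.pow_le_pow_left hd _
  have h6 := lt_three_pow h2
  omega

/-- the kernel on `Ω / E j` -/
def ker (h : Cart R Ω J E d) (j : J) : Subgroup R where
  carrier := {r | ∀ x, E j (r • x) x}
  one_mem' := fun x => by rw [one_smul]; exact (h.eqv j).refl x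
  mul_mem' := fun {a b} ha hb x => by
    rw [mul_smul]
    exact (h.eqv j).trans (ha (b • x)) (hb x)
  inv_mem' := fun {a} ha x => by
    have h1 := ha (a⁻¹ • x)
    rw [smul_inv_smul] at h1
    exact (h.eqv j).symm h1

theorem mem_ker (h : Cart R Ω J E d) {j : J} {r : R} :
    r ∈ h.ker j ↔ ∀ x, E j (r • x) x := Iff.rfl

theorem mem_ker_of (h : Cart R Ω J E d) (hfix : ∀ (r : R) (j : J), r • j = j) {j : J} {r : R} {x₀ : Ω}
    (hx : E j (r • x₀) x₀) : r ∈ h.ker j :=
  (h.fix_pair (hfix r j) hx (mem_orbit_self j)).2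

theorem eq_one_of_mem (h : Cart R Ω J E d) [Nonempty Ω] {r : R}
    (hr : ∀ j, r ∈ h.ker j) : r = 1 := by
  obtain ⟨x₀⟩ : Nonempty Ω := inferInstance
  exact h.free x₀ r (h.sep _ _ fun j => hr j x₀)

/-- Chinese remainder theorem -/
theorem crt (h : Cart R Ω J E d) (hfix : ∀ (r : R) (j : J), r • j = j) [Nonempty Ω] (t : J → R) :
    ∃ r : R, ∀ j, (t j)⁻¹ * r ∈ h.ker j := by
  obtain ⟨x₀⟩ : Nonempty Ω := inferInstance
  obtain ⟨x, hx⟩ := h.ind fun j => t j • x₀
  obtain ⟨r, rfl⟩ := h.trans x₀ x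
  refine ⟨r, fun j => h.mem_ker_of hfix (x₀ := x₀) ?_⟩
  have h1 := h.act (t j)⁻¹ _ _ _ (hx j)
  rwa [hfix, inv_smul_smul, ← mul_smul] at h1

theorem index_ker (h : Cart R Ω J E d) (hfix : ∀ (r : R) (j : J), r • j = j) [Nonempty Ω] (j : J) :
    (h.ker j).index = d := by
  obtain ⟨x₀⟩ : Nonempty Ω := inferInstance
  refine Eq.trans ?_ (h.card j)
  let F : R ⧸ h.ker j → Quotient (⟨E j, h.eqv j⟩ : Setoid Ω) := fun a =>
    Quotient.liftOn' a (fun r => Quotient.mk _ (r • x₀)) fun a b hab => by
      apply Quotient.sound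
      show E j (a • x₀) (b • x₀)
      rw [QuotientGroup.leftRel_apply] at hab
      have h1 := h.mem_ker.1 hab (a • x₀)
      rw [← mul_smul, mul_comm a⁻¹ b, mul_assoc, inv_mul_cancel, mul_one] at h1
      exact (h.eqv j).symm h1
  have hF : Function.Bijective F := by
    constructor
    · intro a b
      induction a using QuotientGroup.induction_on with
      | H a =>
        induction b using QuotientGroup.induction_on with
        | H b =>
          intro hab
          have h1 : E j (a • x₀) (b • x₀) := Quotient.exact hab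
          rw [QuotientGroup.eq]
          apply h.mem_ker_of hfix (x₀ := x₀)
          have h2 := h.act a⁻¹ _ _ _ h1
          rw [hfix, inv_smul_smul, ← mul_smul] at h2
          exact (h.eqv j).symm h2
    · intro b
      induction b using Quotient.inductionOn with
      | h b =>
        obtain ⟨r, hr⟩ := h.trans x₀ b
        exact ⟨(r : R ⧸ h.ker j), congrArg (Quotient.mk _) hr⟩
  exact Nat.card_congr (Equiv.ofBijective F hF)

end Cart

/-- **Regular abelian groups preserving a cartesian decomposition.** -/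
theorem cart {R Ω J : Type*} [CommGroup R] [MulAction R Ω] [MulAction R J] {E : J → Ω → Ω → Prop} {d : ℕ}
    (h : Cart R Ω J E d) [Finite J] [Finite Ω] [Nonempty Ω] (hd : 3 ≤ d) (hJ : 2 ≤ Nat.card J) :
    ∃ (r : ℕ) (f : Fin r → Subgroup R), 2 ≤ r ∧ iSupIndep f ∧ (⨆ i, f i) = ⊤ ∧ ∀ i, Nat.card ↥(f i) = d := by
  classical
  have hfix : ∀ (r : R) (j : J), r • j = j := fun r j => h.fixed hd r j
  have := Fintype.ofFinite J
  let F : J → Subgroup R := fun j => ⨅ i : {i : J // i ≠ j}, h.ker i
  have hF : ∀ {i j : J}, i ≠ j → F j ≤ h.ker i := fun {i j} hij => iInf_le (fun i : {i : J // i ≠ j} => h.ker i) ⟨i, hij⟩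
  have hmem : ∀ {j : J} {r : R}, r ∈ F j ↔ ∀ i, i ≠ j → r ∈ h.ker i := by
    intro j r
    rw [Subgroup.mem_iInf]
    exact ⟨fun H i hi => H ⟨i, hi⟩, fun H i => H i.1 i.2⟩
  have hdis : ∀ j, F j ⊓ h.ker j = ⊥ := by
    intro j
    rw [eq_bot_iff]
    rintro r ⟨h1, h2⟩
    rw [Subgroup.mem_bot]
    apply h.eq_one_of_mem
    intro i
    by_cases hi : i = j
    · rw [hi]; exact h2
    · exact hF hi h1
  have hind : iSupIndep F := by
    intro j
    rw [disjoint_iff, eq_bot_iff, ← hdis j]
    refine inf_le_inf_left _ (iSup_le fun i => iSup_le fun hi => hF hi.symm)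
  have hsup : (⨆ j, F j) = ⊤ := by
    rw [eq_top_iff]
    intro r _
    choose s hs using fun j : J => h.crt hfix (Function.update (fun _ => (1 : R)) j r)
    have hs1 : ∀ j, s j ∈ F j := by
      intro j
      rw [hmem]
      intro i hi
      have := hs j i
      rwa [Function.update_of_ne hi, inv_one, one_mul] at this
    have hs2 : ∀ j, r⁻¹ * s j ∈ h.ker j := by
      intro j
      have := hs j j
      rwa [Function.update_self] at this
    have hr : r = ∏ j, s j := by
      have h1 : (r⁻¹ * ∏ j, s j) = 1 := by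
        apply h.eq_one_of_mem
        intro i
        rw [← Finset.mul_prod_erase Finset.univ s (Finset.mem_univ i), ← mul_assoc]
        refine mul_mem (hs2 i) (prod_mem fun j hj => hF (Finset.ne_of_mem_erase hj).symm (hs1 j))
      exact inv_mul_eq_one.1 h1
    rw [hr]
    exact prod_mem fun j _ => (le_iSup F j) (hs1 j)
  have hcard : ∀ j, Nat.card (F j) = d := by
    intro j
    refine Eq.trans ?_ (h.index_ker hfix j)
    have hc : (F j).IsComplement' (h.ker j) := by
      apply Subgroup.isComplement'_of_disjoint_and_mul_eq_univ (disjoint_iff.2 (hdis j))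
      rw [Set.eq_univ_iff_forall]
      intro r
      obtain ⟨s, hs⟩ := h.crt hfix (Function.update (fun _ => (1 : R)) j r)
      refine ⟨s, ?_, s⁻¹ * r, ?_, by simp⟩
      · show s ∈ F j
        rw [hmem]
        intro i hi
        have := hs i
        rwa [Function.update_of_ne hi, inv_one, one_mul] at this
      · have := hs j
        rw [Function.update_self] at this
        have h1 := inv_mem this
        rwa [mul_inv_rev, inv_inv] at h1
    exact hc.index_eq_card.symm
  refine ⟨Fintype.card J, fun i => F ((Fintype.equivFin J).symm i), ?_, ?_, ?_, fun i => hcard _⟩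
  · rwa [← Nat.card_eq_fintype_card]
  · exact hind.comp (Fintype.equivFin J).symm.injective
  · rw [← hsup]
    exact (Fintype.equivFin J).symm.iSup_comp (g := F)

end Cfsg.Agent.H349.BG
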